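import Cfsg.Agent.TwoAut.EmbedGL
import Cfsg.Agent.Linear.Orders
import Cfsg.Agent.PSolv.Factorization

/-!
Elements of order three acting on an elementary abelian 2-group with commutator of order four.
-/

set_option autoImplicit false

open Cfsg

namespace Cfsg.Agent.Reflect

variable {S : Type*} [Group S]

/-- The elements whose commutators with `M` lie in `W`. -/
def commInto (M : Subgroup S) [hMn : M.Normal] (W : Subgroup S) : Subgroup S where
  carrier := {g | ∀ m ∈ M, g * m * g⁻¹ * m⁻¹ ∈ W}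
  one_mem' := fun m _ => by simp
  mul_mem' := fun {a b} ha hb m hm => by
    have h1 := W.mul_mem (ha _ (hMn.conj_mem m hm b)) (hb m hm)
    convert h1 using 1
    group
  inv_mem' := fun {a} ha m hm => by
    have h1 := W.inv_mem (ha _ (hMn.conj_mem m hm a⁻¹))
    convert h1 using 1
    group

theorem mem_commInto {M W : Subgroup S} [M.Normal] {g : S} :
    g ∈ commInto M W ↔ ∀ m ∈ M, g * m * g⁻¹ * m⁻¹ ∈ W := Iff.rfl

theorem commInto_mono {M V W : Subgroup S} [M.Normal] (h : V ≤ W) :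
    commInto M V ≤ commInto M W := fun _ hg m hm => h (hg m hm)

theorem commInto_le_normalizer [Finite S] {M W : Subgroup S} [M.Normal] (hWM : W ≤ M) :
    commInto M W ≤ Subgroup.normalizer (W : Set S) := by
  intro g hg
  have key : ∀ h ∈ commInto M W, ∀ w ∈ W, h * w * h⁻¹ ∈ W := fun h hh w hw => by
    have := W.mul_mem (hh w (hWM hw)) hw
    simpa using this
  rw [Subgroup.mem_normalizer_iff]
  intro y
  refine ⟨key g hg y, fun hy => ?_⟩
  have := key g⁻¹ (inv_mem hg) _ hy
  simpa [mul_assoc] using this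

theorem comm_of_elemAb {M : Subgroup S} (hM : IsElementaryAbelian 2 M) {a b : S} (ha : a ∈ M)
    (hb : b ∈ M) : a * b = b * a :=
  congrArg Subtype.val (hM.1.is_comm.comm ⟨a, ha⟩ ⟨b, hb⟩)

theorem mul_self_of_elemAb {M : Subgroup S} (hM : IsElementaryAbelian 2 M) {a : S} (ha : a ∈ M) :
    a * a = 1 := by
  rw [← pow_two]; exact hM.2 a ha

theorem inv_of_elemAb {M : Subgroup S} (hM : IsElementaryAbelian 2 M) {a : S} (ha : a ∈ M) :
    a⁻¹ = a := inv_eq_of_mul_eq_one_right (mul_self_of_elemAb hM ha)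

/-- An element centralizing `W`, with commutators in `W` and some odd power trivial on `M`,
is trivial on `M`. -/
theorem mem_centralizer_of_odd {M W : Subgroup S} [hMn : M.Normal] (hM : IsElementaryAbelian 2 M)
    (hWM : W ≤ M) {g : S} (hg : g ∈ commInto M W) (hgW : g ∈ Subgroup.centralizer (W : Set S))
    {n : ℕ} (hn : Odd n) (hgn : g ^ n ∈ Subgroup.centralizer (M : Set S)) :
    g ∈ Subgroup.centralizer (M : Set S) := by
  refine Subgroup.mem_centralizer_iff.2 fun m hm => ?_
  set w := g * m * g⁻¹ * m⁻¹ with hw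
  have hwW : w ∈ W := hg m hm
  have hgw : g * w * g⁻¹ = w := by
    rw [← Subgroup.mem_centralizer_iff.1 hgW w hwW]; group
  have h1 : g * m * g⁻¹ = m * w := by
    rw [comm_of_elemAb hM hm (hWM hwW), hw]; group
  have hk : ∀ k : ℕ, g ^ k * m * (g ^ k)⁻¹ = m * w ^ k := by
    intro k
    induction k with
    | zero => simp
    | succ k ih =>
      calc g ^ (k + 1) * m * (g ^ (k + 1))⁻¹ = g * (g ^ k * m * (g ^ k)⁻¹) * g⁻¹ := by
            rw [pow_succ' g k]; group
        _ = g * (m * w ^ k) * g⁻¹ := by rw [ih]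
        _ = (g * m * g⁻¹) * (g * w * g⁻¹) ^ k := by rw [conj_pow]; group
        _ = m * w ^ (k + 1) := by rw [h1, hgw, pow_succ']; group
  have h2 := hk n
  rw [mul_inv_eq_iff_eq_mul.2 (Subgroup.mem_centralizer_iff.1 hgn m hm).symm] at h2
  have h3 : w ^ n = 1 := mul_left_cancel (a := m) (by rw [← h2, mul_one])
  obtain ⟨j, rfl⟩ := hn
  rw [pow_succ, pow_mul, hM.2 w (hWM hwW), one_pow, one_mul] at h3
  rw [h3, mul_one, mul_inv_eq_iff_eq_mul] at h1
  exact h1.symm

/-- `x` acts on `M` as an element of order three with commutator the four-group `V`. -/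
structure IsRefl (M : Subgroup S) (x : S) (V : Subgroup S) : Prop where
  le : V ≤ M
  card : Nat.card V = 4
  conj : x ∈ Subgroup.normalizer (V : Set S)
  comm_mem : ∀ m ∈ M, x * m * x⁻¹ * m⁻¹ ∈ V
  fpf : ∀ v ∈ V, x * v * x⁻¹ = v → v = 1
  cube : x ^ 3 ∈ Subgroup.centralizer (M : Set S)

theorem IsRefl.surj [Finite S] {M V : Subgroup S} {x : S} (hM : IsElementaryAbelian 2 M)
    (h : IsRefl M x V) : ∀ v ∈ V, ∃ u ∈ V, x * u * x⁻¹ * u⁻¹ = v := by
  let f : V → V := fun u => ⟨x * u * x⁻¹ * (u : S)⁻¹, h.comm_mem u (h.le u.2)⟩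
  have hinj : Function.Injective f := by
    rintro ⟨a, ha⟩ ⟨b, hb⟩ hab
    have e : x * a * x⁻¹ * a⁻¹ = x * b * x⁻¹ * b⁻¹ := congrArg Subtype.val hab
    have hxa : x * a * x⁻¹ ∈ V := (Subgroup.mem_normalizer_iff.1 h.conj a).1 ha
    have hxb : x * b * x⁻¹ ∈ V := (Subgroup.mem_normalizer_iff.1 h.conj b).1 hb
    apply Subtype.ext
    have h1 : b⁻¹ * a = 1 := by
      refine h.fpf _ (V.mul_mem (V.inv_mem hb) ha) ?_
      calc x * (b⁻¹ * a) * x⁻¹ = (x * b * x⁻¹)⁻¹ * (x * a * x⁻¹ * a⁻¹) * a := by group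
        _ = (x * b * x⁻¹)⁻¹ * (x * b * x⁻¹ * b⁻¹) * a := by rw [e]
        _ = b⁻¹ * a := by group
    exact (inv_mul_eq_one.1 h1).symm
  intro v hv
  obtain ⟨u, hu⟩ := Finite.surjective_of_injective hinj ⟨v, hv⟩
  exact ⟨u, u.2, congrArg Subtype.val hu⟩

theorem IsRefl.map {M V : Subgroup S} [hMn : M.Normal] {x : S} (h : IsRefl M x V) (t : S) :
    IsRefl M (t * x * t⁻¹) (V.map (MulAut.conj t).toMonoidHom) where
  le := by
    rintro _ ⟨v, hv, rfl⟩
    exact hMn.conj_mem v (h.le hv) t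
  card := by
    rw [Subgroup.card_map_of_injective (MulAut.conj t).injective, h.card]
  conj := PSolv.map_normalizer_le_normalizer_image _ _ ⟨x, h.conj, rfl⟩
  comm_mem := fun m hm => by
    refine ⟨x * (t⁻¹ * m * t) * x⁻¹ * (t⁻¹ * m * t)⁻¹, h.comm_mem _ ?_, ?_⟩
    · have := hMn.conj_mem m hm t⁻¹
      simpa using this
    · simp [mul_assoc]
  fpf := by
    rintro _ ⟨v, hv, rfl⟩ hfix
    have : x * v * x⁻¹ = v := by
      apply (MulAut.conj t).injective
      simpa [mul_assoc] using hfix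
    rw [h.fpf v hv this, map_one]
  cube := by
    rw [conj_pow]
    refine Subgroup.mem_centralizer_iff.2 fun m hm => ?_
    have := Subgroup.mem_centralizer_iff.1 h.cube (t⁻¹ * m * t) (by
      have := hMn.conj_mem m hm t⁻¹
      simpa using this)
    calc m * (t * x ^ 3 * t⁻¹) = t * ((t⁻¹ * m * t) * x ^ 3) * t⁻¹ := by group
      _ = t * (x ^ 3 * (t⁻¹ * m * t)) * t⁻¹ := by rw [this]
      _ = t * x ^ 3 * t⁻¹ * m := by group

theorem eq_of_card_four [Finite S] {A B : Subgroup S} (hA : Nat.card A = 4)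
    (hB : Nat.card B = 4) (h : A ≤ B) : A = B :=
  Subgroup.eq_of_le_of_card_ge h (by omega)

/-- Two distinct nontrivial elements of a four-group in `U` force it inside `U`. -/
theorem le_of_two [Finite S] {V U : Subgroup S} (hV : Nat.card V = 4) {a b : S} (ha : a ∈ V)
    (hb : b ∈ V) (haU : a ∈ U) (hbU : b ∈ U) (ha1 : a ≠ 1) (hb1 : b ≠ 1) (hab : a ≠ b) :
    V ≤ U := by
  classical
  have h3 : 3 ≤ Nat.card ↥(V ⊓ U) := by
    let f : Fin 3 → ↥(V ⊓ U) := ![1, ⟨a, ha, haU⟩, ⟨b, hb, hbU⟩]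
    have hf : Function.Injective f := by
      intro i j hij
      have hval : ((f i : S)) = (f j : S) := congrArg Subtype.val hij
      fin_cases i <;> fin_cases j <;> simp [f] at hval ⊢ <;>
        first
          | exact absurd hval ha1
          | exact absurd hval.symm ha1
          | exact absurd hval hb1
          | exact absurd hval.symm hb1
          | exact absurd hval hab
          | exact absurd hval.symm hab
    simpa using Nat.card_le_card_of_injective f hf
  have hd : Nat.card ↥(V ⊓ U) ∣ 4 := hV ▸ Subgroup.card_dvd_of_le inf_le_left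
  have h4 : Nat.card ↥(V ⊓ U) = 4 := by
    have := Nat.le_of_dvd (by norm_num) hd
    interval_cases hh : Nat.card ↥(V ⊓ U)
    · omega
    · rfl
  exact (eq_of_card_four h4 hV inf_le_left).ge.trans inf_le_right

/-- Elements of `V` are commutators of `x`, so conjugates acting alike give the same four-group. -/
theorem IsRefl.eq_of_same [Finite S] {M V V' : Subgroup S} {x y : S}
    (hM : IsElementaryAbelian 2 M) (h : IsRefl M x V) (h' : IsRefl M y V')
    (hxy : y * x⁻¹ ∈ Subgroup.centralizer (M : Set S)) : V = V' := by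
  refine eq_of_card_four h.card h'.card fun v hv => ?_
  obtain ⟨u, hu, rfl⟩ := h.surj hM v hv
  have hxu : x * u * x⁻¹ ∈ M := h.le ((Subgroup.mem_normalizer_iff.1 h.conj u).1 hu)
  have h1 := Subgroup.mem_centralizer_iff.1 hxy _ hxu
  have h2 : y * u * y⁻¹ = x * u * x⁻¹ := by
    calc y * u * y⁻¹ = (y * x⁻¹) * (x * u * x⁻¹) * (y * x⁻¹)⁻¹ := by group
      _ = x * u * x⁻¹ := by rw [← h1, mul_inv_cancel_right]
  rw [← h2]
  exact h'.comm_mem u (h.le hu)

/-- Commuting actions: the four-groups agree, or each element fixes the other's four-group. -/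
theorem IsRefl.eq_or_fix [Finite S] {M V V' : Subgroup S} [hMn : M.Normal] {x y : S}
    (hM : IsElementaryAbelian 2 M) (h : IsRefl M x V) (h' : IsRefl M y V')
    (hxy : x * y * x⁻¹ * y⁻¹ ∈ Subgroup.centralizer (M : Set S)) :
    V' = V ∨ ∀ v ∈ V, y * v * y⁻¹ = v := by
  have hyV : ∀ v ∈ V, y * v * y⁻¹ ∈ V := by
    intro v hv
    obtain ⟨u, hu, rfl⟩ := h.surj hM v hv
    have hyu : y * u * y⁻¹ ∈ M := hMn.conj_mem u (h.le hu) y
    have h1 := Subgroup.mem_centralizer_iff.1 hxy _
      (hMn.conj_mem u (h.le hu) (y * x))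
    have h2 : x * (y * u * y⁻¹) * x⁻¹ = y * (x * u * x⁻¹) * y⁻¹ := by
      calc x * (y * u * y⁻¹) * x⁻¹
          = (x * y * x⁻¹ * y⁻¹) * (y * x * u * (y * x)⁻¹) * (x * y * x⁻¹ * y⁻¹)⁻¹ := by group
        _ = y * x * u * (y * x)⁻¹ := by rw [← h1, mul_inv_cancel_right]
        _ = y * (x * u * x⁻¹) * y⁻¹ := by group
    have h3 := h.comm_mem _ hyu
    rw [h2] at h3
    convert h3 using 1
    group
  by_contra hne
  rw [not_or] at hne
  obtain ⟨hne, hfix⟩ := hne
  apply hfix
  intro v hv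
  by_contra hv1
  set u := y * v * y⁻¹ * v⁻¹ with hu
  have huV' : u ∈ V' := h'.comm_mem v (h.le hv)
  have huV : u ∈ V := V.mul_mem (hyV v hv) (V.inv_mem hv)
  have hu1 : u ≠ 1 := fun h0 => hv1 (mul_inv_eq_one.1 h0)
  have hyu : y * u * y⁻¹ ≠ u := fun h0 => hu1 (h'.fpf u huV' h0)
  refine hne (eq_of_card_four h'.card h.card
    (le_of_two h'.card huV' ((Subgroup.mem_normalizer_iff.1 h'.conj u).1 huV') huV
      (hyV u huV) hu1 (fun h0 => hu1 (conj_eq_one_iff.1 h0)) (fun h0 => hyu h0.symm)))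

theorem card_mul_card_inf [Finite S] {M A B : Subgroup S} (hM : IsElementaryAbelian 2 M)
    (hA : A ≤ M) (hB : B ≤ M) :
    Nat.card ↥(A ⊔ B) * Nat.card ↥(A ⊓ B) = Nat.card A * Nat.card B := by
  have hBn : (B.subgroupOf (A ⊔ B)).Normal := by
    constructor
    intro b hb g
    have : g * b = b * g := Subtype.ext (comm_of_elemAb hM (sup_le hA hB g.2) (sup_le hA hB b.2))
    rwa [this, mul_inv_cancel_right]
  have h1 : B.relIndex (A ⊔ B) = B.relIndex A := by
    have := Subgroup.relIndex_sup_right (A.subgroupOf (A ⊔ B)) (B.subgroupOf (A ⊔ B))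
    rw [← Subgroup.subgroupOf_sup le_sup_left le_sup_right, Subgroup.subgroupOf_self,
      Subgroup.relIndex_top_right, Subgroup.relIndex_subgroupOf le_sup_left] at this
    exact this
  have e1 := Subgroup.relIndex_mul_relIndex ⊥ B (A ⊔ B) bot_le le_sup_right
  have e2 := Subgroup.relIndex_mul_relIndex ⊥ (A ⊓ B) A bot_le inf_le_left
  rw [Subgroup.relIndex_bot_left, Subgroup.relIndex_bot_left, h1] at e1
  rw [Subgroup.relIndex_bot_left, Subgroup.relIndex_bot_left, Subgroup.inf_relIndex_left] at e2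
  rw [← e1, ← e2]; ring

/-! ### Sizes of automizers -/

theorem relIndex_centralizer_dvd [Finite S] {U D : Subgroup S}
    (hD : D ≤ Subgroup.normalizer (U : Set S)) :
    (Subgroup.centralizer (U : Set S)).relIndex D ∣ Nat.card (MulAut U) := by
  let θ : D →* MulAut U := U.normalizerMonoidHom.comp (Subgroup.inclusion hD)
  have hker : θ.ker = (Subgroup.centralizer (U : Set S)).subgroupOf D := by
    rw [← MonoidHom.comap_ker, Subgroup.normalizerMonoidHom_ker]
    rfl
  change ((Subgroup.centralizer (U : Set S)).subgroupOf D).index ∣ _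
  rw [← hker, Subgroup.index_ker]
  exact Subgroup.card_subgroup_dvd_card _

theorem card_mulAut_dvd_factorial (U : Type*) [Group U] [Finite U] :
    Nat.card (MulAut U) ∣ (Nat.card U).factorial := by
  rw [← Nat.card_perm]
  exact Subgroup.card_dvd_of_injective
    ({ toFun := fun e => e.toEquiv, map_one' := rfl, map_mul' := fun _ _ => rfl } :
      MulAut U →* Equiv.Perm U) fun a b h => MulEquiv.toEquiv_injective h

theorem card_SL4_two : Nat.card (Matrix.SpecialLinearGroup (Fin 4) (ZMod 2)) = 20160 := by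
  haveI : Fact (Nat.Prime 2) := ⟨Nat.prime_two⟩
  have h := Linear.card_SL_mul (F := ZMod 2) 4
  rw [ZMod.card, Fin.prod_univ_four] at h
  generalize Nat.card (Matrix.SpecialLinearGroup (Fin 4) (ZMod 2)) = c at h ⊢
  simp only [Fin.val_zero, Fin.val_one, Fin.val_two, show ((3 : Fin 4) : ℕ) = 3 from rfl] at h
  omega

theorem card_mulAut_dvd_small [Finite S] {M U : Subgroup S} (hM : IsElementaryAbelian 2 M)
    (hU : U ≤ M) (hc : Nat.card U ≤ 16) : Nat.card (MulAut U) ∣ 20160 := by
  letI : CommGroup U := { (inferInstance : Group U) with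
    mul_comm := fun a b => Subtype.ext (comm_of_elemAb hM (hU a.2) (hU b.2)) }
  obtain ⟨f, hf⟩ := TwoAut.exists_mulAut_embed (E := U)
    (fun e => Subtype.ext (mul_self_of_elemAb hM (hU e.2))) hc
  exact (Subgroup.card_dvd_of_injective f hf).trans (dvd_of_eq card_SL4_two)

end Cfsg.Agent.Reflect
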