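import Cfsg.Agent.Reflect.Main

/-!
Existence of an elementary abelian group of order `r³` with noncyclic centralizer of a
commutator four-group.
-/

set_option autoImplicit false

open Cfsg

namespace Cfsg.Agent.Reflect

variable {S : Type*} [Group S] [Finite S]

theorem exists_invariant_small {M V T : Subgroup S} [hMn : M.Normal]
    (hM : IsElementaryAbelian 2 M) {x : S} (h : IsRefl M x V) {p : ℕ} [Fact p.Prime] (hp : 5 ≤ p)
    (hT : IsPGroup p T) (hxT : x ∈ Subgroup.normalizer (T : Set S)) :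
    ∃ U : Subgroup S, V ≤ U ∧ T ≤ Subgroup.normalizer (U : Set S) ∧
      ¬ p ^ 2 ∣ (Nat.card U).factorial := by
  have hp' : p.Prime := Fact.out
  by_cases hall : ∀ t ∈ T, cjV t V = V
  · refine ⟨V, le_rfl, fun t ht => Subgroup.mem_normalizer_iff_map_conj_eq.2 (hall t ht), ?_⟩
    rw [h.card]
    intro hd
    have := (hp'.dvd_factorial).1 ((dvd_pow_self p (two_ne_zero)).trans hd)
    omega
  push_neg at hall
  obtain ⟨t₁, ht₁, hne₁⟩ := hall
  obtain ⟨rfl, w₁, hw₁V, hw₁1, hw₁⟩ := cjV_eq_or_inter hM h hp hT hxT ht₁ hne₁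
  -- two members of the orbit are equal or meet
  have hpair : ∀ a ∈ T, ∀ b ∈ T, ∃ w ∈ cjV a V, w ∈ cjV b V ∧ w ≠ 1 := by
    intro a ha b hb
    by_cases he : cjV (a⁻¹ * b) V = V
    · obtain ⟨v, hv, hv1⟩ : ∃ v ∈ V, v ≠ 1 := ⟨w₁, hw₁V, hw₁⟩
      refine ⟨a * v * a⁻¹, mem_cjV hv, ?_, fun e => hv1 (conj_eq_one_iff.1 e)⟩
      rw [show b = a * (a⁻¹ * b) by group, cjV_mul, he]
      exact mem_cjV hv
    · obtain ⟨-, w, hwV, hw', hw1⟩ := cjV_eq_or_inter hM h hp hT hxT (mul_mem (inv_mem ha) hb) he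
      refine ⟨a * w * a⁻¹, mem_cjV hwV, ?_, fun e => hw1 (conj_eq_one_iff.1 e)⟩
      rw [show b = a * (a⁻¹ * b) by group, cjV_mul]
      exact mem_cjV hw'
  have hcardA : ∀ a : S, Nat.card ↥(cjV a V) = 4 := fun a => (h.map a).card
  -- two distinct members share only one nontrivial element
  have huniq : ∀ a b : S, cjV a V ≠ cjV b V → ∀ u v : S, u ∈ cjV a V → u ∈ cjV b V → u ≠ 1 →
      v ∈ cjV a V → v ∈ cjV b V → v ≠ 1 → u = v := by
    intro a b hne u v hua hub hu1 hva hvb hv1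
    by_contra huv
    exact hne (eq_of_card_four (hcardA a) (hcardA b)
      (le_of_two (hcardA a) hua hva hub hvb hu1 hv1 huv))
  set V1 := cjV t₁ V with hV1
  set U := V ⊔ V1 with hU
  set t₂ := x * t₁ * x⁻¹ with ht₂
  have ht₂T : t₂ ∈ T := (Subgroup.mem_normalizer_iff.1 hxT t₁).1 ht₁
  have hV2 : cjV t₂ V = cjV x V1 := by
    rw [hV1, ← cjV_mul, ht₂]
    conv_rhs => rw [show x * t₁ = t₂ * x by rw [ht₂]; group, cjV_mul, cjV_of_mem h.conj]
  set w₂ := x * w₁ * x⁻¹ with hw₂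
  have hw₂V : w₂ ∈ V := (Subgroup.mem_normalizer_iff.1 h.conj w₁).1 hw₁V
  have hw₂2 : w₂ ∈ cjV t₂ V := hV2 ▸ mem_cjV hw₁1
  have hw₂1 : w₂ ≠ 1 := fun e => hw₁ (conj_eq_one_iff.1 e)
  have hw12 : w₂ ≠ w₁ := fun e => hw₁ (h.fpf w₁ hw₁V e)
  have hV0 : cjV (1 : S) V = V := cjV_one V
  have hone : ∀ u : S, u ∈ V → u ∈ V1 → u ≠ 1 → u = w₁ := fun u h1 h2 h3 =>
    huniq 1 t₁ (by rw [hV0]; exact fun e => hne₁ e.symm) u w₁ (hV0.symm ▸ h1) h2 h3
      (hV0.symm ▸ hw₁V) hw₁1 hw₁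
  have hV2U : cjV t₂ V ≤ U := by
    obtain ⟨u, hu1, hu2, hu⟩ := hpair t₁ ht₁ t₂ ht₂T
    refine le_of_two (hcardA t₂) hw₂2 hu2 (Subgroup.mem_sup_left hw₂V) (Subgroup.mem_sup_right hu1)
      hw₂1 hu ?_
    rintro rfl
    exact hw12 (hone _ hw₂V hu1 hw₂1)
  have hallU : ∀ s ∈ T, cjV s V ≤ U := by
    intro s hs
    obtain ⟨a, ha0, has, ha1⟩ := hpair 1 (one_mem T) s hs
    rw [hV0] at ha0
    by_cases haw : a = w₁
    · subst haw
      by_cases he : cjV s V = cjV t₂ V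
      · exact he ▸ hV2U
      obtain ⟨b, hb2, hbs, hb1⟩ := hpair t₂ ht₂T s hs
      refine le_of_two (hcardA s) has hbs (Subgroup.mem_sup_left ha0) (hV2U hb2) ha1 hb1 ?_
      rintro rfl
      refine hw12 (huniq 1 t₂ ?_ w₂ a (hV0.symm ▸ hw₂V) hw₂2 hw₂1 (hV0.symm ▸ ha0) hb2 ha1)
      rw [hV0]
      intro e
      have h1 : cjV x V = cjV x V1 := by rw [cjV_of_mem h.conj, ← hV2]; exact e
      exact hne₁ (Subgroup.map_injective (MulAut.conj x).injective h1).symm
    · obtain ⟨b, hb2, hbs, hb1⟩ := hpair t₁ ht₁ s hs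
      refine le_of_two (hcardA s) has hbs (Subgroup.mem_sup_left ha0) (Subgroup.mem_sup_right hb2)
        ha1 hb1 ?_
      rintro rfl
      exact haw (hone a ha0 hb2 ha1)
  have hU8 : Nat.card U ≤ 8 := by
    have e := card_mul_card_inf hM h.le (h.map t₁).le
    rw [h.card, (h.map t₁).card] at e
    have h2 : 1 < Nat.card ↥(V ⊓ V1) := by
      rw [Subgroup.one_lt_card_iff_ne_bot]
      intro hb
      exact hw₁ (Subgroup.mem_bot.1 (hb ▸ Subgroup.mem_inf.2 ⟨hw₁V, hw₁1⟩))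
    change Nat.card U * Nat.card ↥(V ⊓ V1) = _ at e
    nlinarith
  refine ⟨U, le_sup_left, fun t ht => ?_, ?_⟩
  · rw [Subgroup.mem_normalizer_iff_map_conj_eq]
    refine Subgroup.eq_of_le_of_card_ge ?_
      (Subgroup.card_map_of_injective (MulAut.conj t).injective).ge
    rw [hU, Subgroup.map_sup]
    refine sup_le (hallU t ht) ?_
    change cjV t V1 ≤ U
    rw [hV1, ← cjV_mul]
    exact hallU _ (mul_mem ht ht₁)
  · intro hd
    have h1 := hd.trans (Nat.factorial_dvd_factorial hU8)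
    norm_num [Nat.factorial] at h1

/-- A `{3,p}`-group (`p ≥ 5`) of 3-rank at most two has a normal Sylow `p`-subgroup. -/
theorem not_dvd_index_pCore {X : Type*} [Group X] [Finite X] {p : ℕ} [Fact p.Prime] (hp : 5 ≤ p)
    (hX : Automizer.OnlyPrimes 3 p X) [Group.IsSolvable X] (hr : PRankLE 3 2 X) :
    ¬ p ∣ (pCore p X).index := by
  haveI : Fact (Nat.Prime 3) := ⟨Nat.prime_three⟩
  have hp' : p.Prime := Fact.out
  have h3p : Nat.Coprime 3 p := (Nat.coprime_primes Nat.prime_three hp').2 (by omega)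
  haveI : (pCore p X).Normal := pCore_normal p X
  set Y := X ⧸ pCore p X
  have hY : Automizer.OnlyPrimes 3 p Y := hX.of_dvd (Subgroup.card_quotient_dvd_card _)
  haveI : Group.IsSolvable Y := inferInstance
  have hrY : PRankLE 3 2 Y := OddPre.Rank2.pRankLE_quotient_of_coprime _ (by
    obtain ⟨k, hk⟩ := IsPGroup.iff_card.1 (PSolv.isPGroup_pCore p X)
    rw [hk]
    exact Nat.Coprime.pow_left k h3p.symm) hr
  have hO : pPrimeCore 3 Y = ⊥ := by
    haveI := PSolv.pPrimeCore_characteristic 3 Y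
    have hpg : IsPGroup p ↥(pPrimeCore 3 Y) := by
      refine Automizer.isPGroup_of_onlyPrimes (p := p) (q := 3)
        (fun r hr' hd => (hY r hr' (hd.trans (Subgroup.card_subgroup_dvd_card _))).symm) ?_
      exact (Nat.prime_three.coprime_iff_not_dvd).1 (PSolv.coprime_card_pPrimeCore 3 Y).symm
    exact le_bot_iff.1 ((PSolv.le_pCore inferInstance hpg).trans
      (PSolv.pCore_quotient_eq_bot p X).le)
  have hF := PSolv.centralizer_pCore_le (PSolv.isPSolvable_of_isSolvable inferInstance) hO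
  intro hd
  rw [Subgroup.index_eq_card] at hd
  obtain ⟨g, hg⟩ := exists_prime_orderOf_dvd_card' p hd
  haveI : (pCore 3 Y).Normal := pCore_normal 3 Y
  have hgc : g ∈ Subgroup.centralizer (pCore 3 Y : Set Y) :=
    OddPre.Rank2.centralizes_of_prime_gt (p := 3) (by norm_num) _ (PSolv.isPGroup_pCore 3 Y)
      (PGroup.pRankLE_subgroup _ hrY) (Subgroup.normalizer_eq_top (H := pCore 3 Y) ▸ Subgroup.mem_top g)
      (q := p) (i := 1) hp' (by omega) (by rw [hg, pow_one])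
  obtain ⟨k, hk⟩ := IsPGroup.iff_orderOf.1 (PSolv.isPGroup_pCore 3 Y) ⟨g, hF hgc⟩
  have e : (p : ℕ) = 3 ^ k := by rw [← hg, ← hk, ← Subgroup.orderOf_coe]
  have := hp'.dvd_of_dvd_pow (dvd_of_eq e)
  have := Nat.le_of_dvd (by norm_num) this
  omega

theorem isRefl_of_commutator {M Q : Subgroup S} [hMn : M.Normal] (hM : IsElementaryAbelian 2 M)
    {x : S} (hx : Subgroup.zpowers x = Q) (hx3 : x ^ 3 ∈ Subgroup.centralizer (M : Set S))
    (hc : Nat.card ↥⁅Q, M⁆ = 4) : IsRefl M x ⁅Q, M⁆ := by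
  let f : M →* M :=
    { toFun := fun m => ⟨x * m * x⁻¹ * (m : S)⁻¹,
        M.mul_mem (hMn.conj_mem m m.2 x) (M.inv_mem m.2)⟩
      map_one' := Subtype.ext (by simp)
      map_mul' := fun a b => Subtype.ext (by
        have hb : x * b * x⁻¹ * (b : S)⁻¹ ∈ M := M.mul_mem (hMn.conj_mem b b.2 x) (M.inv_mem b.2)
        change x * ((a : S) * b) * x⁻¹ * ((a : S) * b)⁻¹ = _
        calc x * ((a : S) * b) * x⁻¹ * ((a : S) * b)⁻¹
            = (x * a * x⁻¹) * ((x * b * x⁻¹ * (b : S)⁻¹) * (a : S)⁻¹) := by group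
          _ = (x * a * x⁻¹) * ((a : S)⁻¹ * (x * b * x⁻¹ * (b : S)⁻¹)) := by
            rw [comm_of_elemAb hM hb (inv_mem a.2)]
          _ = _ := by simp [mul_assoc]) }
  set R := f.range.map M.subtype with hR
  have hRM : R ≤ M := Subgroup.map_subtype_le _
  have hxR : x ∈ commInto M R := fun m hm => ⟨_, ⟨⟨m, hm⟩, rfl⟩, rfl⟩
  have hQR : Q ≤ commInto M R := hx ▸ Subgroup.zpowers_le.2 hxR
  have hxQ : x ∈ Q := hx ▸ Subgroup.mem_zpowers x
  have hVR : ⁅Q, M⁆ = R := by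
    refine le_antisymm (Subgroup.commutator_le.2 fun g hg m hm => ?_) ?_
    · rw [commutatorElement_def]; exact hQR hg m hm
    · rintro _ ⟨_, ⟨m, rfl⟩, rfl⟩
      have := Subgroup.commutator_mem_commutator (H₁ := Q) (H₂ := M) hxQ m.2
      rw [commutatorElement_def] at this
      exact this
  rw [hVR] at hc ⊢
  refine ⟨hRM, hc, commInto_le_normalizer hRM hxR, fun m hm => hxR m hm, ?_, hx3⟩
  rintro _ ⟨_, ⟨m, rfl⟩, rfl⟩ hfix
  set w : S := x * m * x⁻¹ * (m : S)⁻¹ with hw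
  change x * w * x⁻¹ = w at hfix
  have hwM : w ∈ M := (f m).2
  have h1 : x * m * x⁻¹ = m * w := by
    rw [comm_of_elemAb hM m.2 hwM, hw]; group
  have h2 : x ^ 3 * m * (x ^ 3)⁻¹ = m * (w * w * w) := by
    calc x ^ 3 * m * (x ^ 3)⁻¹ = x * (x * (x * m * x⁻¹) * x⁻¹) * x⁻¹ := by rw [pow_three]; group
      _ = x * (x * (m * w) * x⁻¹) * x⁻¹ := by rw [h1]
      _ = x * ((x * m * x⁻¹) * (x * w * x⁻¹)) * x⁻¹ := by group
      _ = x * (m * w * w) * x⁻¹ := by rw [hfix, h1]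
      _ = (x * m * x⁻¹) * (x * w * x⁻¹) * (x * w * x⁻¹) := by group
      _ = m * (w * w * w) := by rw [hfix, h1]; group
  rw [mul_inv_eq_iff_eq_mul.2 (Subgroup.mem_centralizer_iff.1 hx3 m m.2).symm,
    mul_self_of_elemAb hM hwM, one_mul] at h2
  change w = 1
  exact (mul_eq_left.1 h2.symm)

/-- A prime `r` and an elementary abelian `r³` with noncyclic centralizer of `[Q, M]`. -/
theorem exists_noncyclic_centralizer [Group.IsSolvable S] (M : Subgroup S) [M.Normal]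
    (hM : IsElementaryAbelian 2 M) (p : ℕ) (hp : p.Prime) (hp2 : p ≠ 2) (E : Subgroup S)
    (hE : IsElementaryAbelian p E) (hE3 : Nat.card E = p ^ 3)
    (Q : Subgroup S) (hQc : IsCyclic Q) (hQ3 : IsPGroup 3 Q)
    (hQ1 : ∀ x ∈ Q, x ^ 3 ∈ Subgroup.centralizer (M : Set S)) (hQM : Nat.card ↥⁅Q, M⁆ = 4) :
    ∃ (r : ℕ) (F : Subgroup S), r.Prime ∧ r ≠ 2 ∧ IsElementaryAbelian r F ∧
      Nat.card F = r ^ 3 ∧
      ¬ IsCyclic ↥(F ⊓ Subgroup.centralizer ((⁅Q, M⁆ : Subgroup S) : Set S)) := by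
  haveI : Fact p.Prime := ⟨hp⟩
  haveI : Fact (Nat.Prime 3) := ⟨Nat.prime_three⟩
  obtain ⟨⟨x, hxQ⟩, hgen⟩ := hQc.exists_zpow_surjective
  have hx : Subgroup.zpowers x = Q := by
    refine le_antisymm (Subgroup.zpowers_le.2 hxQ) fun y hy => ?_
    obtain ⟨i, hi⟩ := hgen ⟨y, hy⟩
    exact ⟨i, congrArg Subtype.val hi⟩
  set V := ⁅Q, M⁆ with hV
  have h := isRefl_of_commutator hM hx (hQ1 x hxQ) hQM
  obtain ⟨P, hP⟩ := hQ3.exists_le_sylow
  by_cases hr : PRankLE 3 2 ↥(P : Subgroup S)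
  swap
  · obtain ⟨B, hBn, hBc, hBe, hB3⟩ := FT.BG5.exists_normal_cube (p := 3) (by norm_num) P.isPGroup' hr
    set A := B.map (P : Subgroup S).subtype with hA
    have hAe : IsElementaryAbelian 3 A :=
      Modules.elemAb_map (P : Subgroup S).subtype ⟨hBc, hBe⟩
    have hxA : x ∈ Subgroup.normalizer (A : Set S) :=
      PSolv.map_normalizer_le_normalizer_image _ B
        ⟨⟨x, hP hxQ⟩, Subgroup.normalizer_eq_top (H := B) ▸ Subgroup.mem_top _, rfl⟩
    have hAV := le_normalizer_of_three hM h P.isPGroup' (hP hxQ) hAe (Subgroup.map_subtype_le _) hxA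
    have hA3 : Nat.card A = 3 ^ 3 := by
      rw [hA, Subgroup.card_map_of_injective (P : Subgroup S).subtype_injective, hB3]
    refine ⟨3, A, Nat.prime_three, by norm_num, hAe, hA3,
      exists_noncyclic_of_normalize hAe hA3 hAV le_rfl ?_⟩
    rw [hQM]
    decide
  have hp3 : p ≠ 3 := by
    rintro rfl
    have h1 := (FT.BG5.pRankLE_of_sylow P hr) E hE.1 hE.2
    rw [hE3] at h1
    norm_num at h1
  have hp5 : 5 ≤ p := by
    have := hp.two_le
    by_contra hlt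
    interval_cases p <;> first | omega | norm_num at hp
  obtain ⟨X, hPX, hX, hXi⟩ := Automizer.exists_biprimary_ge (q := p)
    (PSolv.isPSolvable_of_isSolvable (p := 3) inferInstance) P
  haveI : (pCore p X).Normal := pCore_normal p X
  have hXr : PRankLE 3 2 X := PGroup.pRankLE_subgroup X (FT.BG5.pRankLE_of_sylow P hr)
  have hidx := not_dvd_index_pCore hp5 hX hXr
  set T := (pCore p X).map X.subtype with hT
  have hTp : IsPGroup p T := (PSolv.isPGroup_pCore p X).map _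
  have hxT : x ∈ Subgroup.normalizer (T : Set S) :=
    PSolv.map_normalizer_le_normalizer_image _ (pCore p X)
      ⟨⟨x, hPX (hP hxQ)⟩, Subgroup.normalizer_eq_top (H := pCore p X) ▸ Subgroup.mem_top _, rfl⟩
  let ST : Sylow p S := hTp.toSylow (by
    rw [hT, Subgroup.index_map_subtype]
    exact fun hd => (hp.dvd_mul.1 hd).elim hidx hXi)
  have hEp : IsPGroup p E := fun a => ⟨1, Subtype.ext (by simpa using hE.2 a a.2)⟩
  obtain ⟨SE, hSE⟩ := hEp.exists_le_sylow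
  obtain ⟨g, hg⟩ := MulAction.exists_smul_eq S SE ST
  set F := E.map (MulAut.conj g).toMonoidHom with hF
  have hFT : F ≤ T := by
    rw [show T = (ST : Subgroup S) from rfl, ← hg, PSolv.coe_sylow_smul]
    exact Subgroup.map_mono hSE
  have hFe : IsElementaryAbelian p F := Modules.elemAb_map _ hE
  have hF3 : Nat.card F = p ^ 3 := by
    rw [hF, Subgroup.card_map_of_injective (MulAut.conj g).injective, hE3]
  obtain ⟨U, hVU, hTU, hd⟩ := exists_invariant_small hM h hp5 hTp hxT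
  exact ⟨p, F, hp, hp2, hFe, hF3, exists_noncyclic_of_normalize hFe hF3 (hFT.trans hTU) hVU hd⟩

end Cfsg.Agent.Reflect
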