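import Cfsg.Agent.Reflect.Basic
import Cfsg.Agent.Automizer.MoverBasics
import Cfsg.Agent.OddPre.Rank2Cor
import Cfsg.Agent.FT.BG5.Narrow
import Cfsg.Agent.FT.BG5.NarrowSylow
import Cfsg.Agent.PSolv.HallHigman
import Cfsg.Agent.Primitive.Basic

/-!
An elementary abelian subgroup of order `r³` with noncyclic centralizer of a commutator four-group.
-/

set_option autoImplicit false

open Cfsg

namespace Cfsg.Agent.Reflect

variable {S : Type*} [Group S] [Finite S]

/-- Image under conjugation of a four-group. -/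
abbrev cjV (t : S) (V : Subgroup S) : Subgroup S := V.map (MulAut.conj t).toMonoidHom

theorem cjV_mul (s t : S) (V : Subgroup S) : cjV (s * t) V = cjV s (cjV t V) := by
  rw [cjV, cjV, cjV, Subgroup.map_map, map_mul]; rfl

theorem cjV_of_mem {t : S} {V : Subgroup S} (h : t ∈ Subgroup.normalizer (V : Set S)) :
    cjV t V = V := Subgroup.mem_normalizer_iff_map_conj_eq.1 h

theorem mem_cjV {t : S} {V : Subgroup S} {v : S} (hv : v ∈ V) : t * v * t⁻¹ ∈ cjV t V :=
  ⟨v, hv, rfl⟩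

theorem cjV_one (V : Subgroup S) : cjV 1 V = V := cjV_of_mem (one_mem _)

/-- A subgroup `U` of order at most 8 normalized by an elementary abelian group of order `r³`
gives a noncyclic centralizer. -/
theorem exists_noncyclic_of_normalize {r : ℕ} [Fact r.Prime] {F U V : Subgroup S}
    (hF : IsElementaryAbelian r F) (hF3 : Nat.card F = r ^ 3)
    (hFU : F ≤ Subgroup.normalizer (U : Set S)) (hVU : V ≤ U)
    (hr : ¬ r ^ 2 ∣ (Nat.card U).factorial) :
    ¬ IsCyclic ↥(F ⊓ Subgroup.centralizer (V : Set S)) := by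
  have hr' : r.Prime := Fact.out
  set C := Subgroup.centralizer (U : Set S)
  have h1 : Nat.card ↥(F ⊓ C) * C.relIndex F = r ^ 3 := by
    have e := Subgroup.relIndex_mul_relIndex ⊥ (F ⊓ C) F bot_le inf_le_left
    rwa [Subgroup.relIndex_bot_left, Subgroup.relIndex_bot_left,
      Subgroup.inf_relIndex_left, hF3] at e
  have h2 : C.relIndex F ∣ r ^ 3 := ⟨_, by rw [mul_comm]; exact h1.symm⟩
  obtain ⟨k, hk3, hk⟩ := (Nat.dvd_prime_pow hr').1 h2
  have hk1 : k ≤ 1 := by
    by_contra hk1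
    refine hr ((pow_dvd_pow r (show 2 ≤ k by omega)).trans ?_)
    rw [← hk]
    exact (relIndex_centralizer_dvd hFU).trans (card_mulAut_dvd_factorial U)
  rw [hk] at h1
  intro hcyc
  obtain ⟨g, hg⟩ := hcyc.exists_zpow_surjective
  have hle : F ⊓ C ≤ F ⊓ Subgroup.centralizer (V : Set S) :=
    inf_le_inf_left F (Subgroup.centralizer_le hVU)
  have hgr : Nat.card ↥(F ⊓ Subgroup.centralizer (V : Set S)) ∣ r := by
    have : IsCyclic ↥(F ⊓ Subgroup.centralizer (V : Set S)) := hcyc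
    rw [← orderOf_eq_card_of_forall_mem_zpowers (g := g) (fun x => hg x)]
    exact orderOf_dvd_of_pow_eq_one (Subtype.ext (hF.2 _ g.2.1))
  have h3 : Nat.card ↥(F ⊓ C) ≤ r :=
    (Subgroup.card_le_of_le hle).trans (Nat.le_of_dvd hr'.pos hgr)
  have h4 : r ^ 3 ≤ r * r := by
    rw [← h1]
    exact Nat.mul_le_mul h3 ((Nat.pow_le_pow_right hr'.pos hk1).trans (pow_one r).le)
  have := hr'.two_le
  nlinarith [Nat.pow_lt_pow_right hr'.one_lt (show 2 < 3 by norm_num), pow_two r]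

theorem commute_mod_of_three {M W D : Subgroup S} [M.Normal] (hM : IsElementaryAbelian 2 M)
    (hWM : W ≤ M) (hc : Nat.card W ≤ 16) (hD : D ≤ commInto M W) (hDp : IsPGroup 3 D) {a b : S}
    (ha : a ∈ D) (hb : b ∈ D) : a * b * a⁻¹ * b⁻¹ ∈ Subgroup.centralizer (M : Set S) := by
  haveI : Fact (Nat.Prime 3) := ⟨Nat.prime_three⟩
  have hDN : D ≤ Subgroup.normalizer (W : Set S) := hD.trans (commInto_le_normalizer hWM)
  set C := (Subgroup.centralizer (W : Set S)).subgroupOf D with hC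
  haveI : C.Normal := by
    refine ⟨fun c hc g => Subgroup.mem_subgroupOf.2 ?_⟩
    exact ((inferInstance : ((Subgroup.centralizer (W : Set S)).subgroupOf
      (Subgroup.normalizer (W : Set S))).Normal).conj_mem ⟨c, hDN c.2⟩
        (Subgroup.mem_subgroupOf.2 (Subgroup.mem_subgroupOf.1 hc)) ⟨g, hDN g.2⟩)
  have hd : Nat.card (D ⧸ C) ∣ 20160 := by
    rw [← Subgroup.index_eq_card]
    exact (relIndex_centralizer_dvd hDN).trans (card_mulAut_dvd_small hM hWM hc)
  obtain ⟨k, hk⟩ := IsPGroup.iff_card.1 (hDp.to_quotient C)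
  have hk2 : k ≤ 2 := by
    by_contra h
    have := (pow_dvd_pow 3 (show 3 ≤ k by omega)).trans (hk ▸ hd)
    norm_num at this
  have hcomm : ∀ u v : D ⧸ C, u * v = v * u := by
    interval_cases k
    · intro u v
      haveI : Subsingleton (D ⧸ C) := (Nat.card_eq_one_iff_unique.1 (by simpa using hk)).1
      exact Subsingleton.elim _ _
    · haveI : IsCyclic (D ⧸ C) := isCyclic_of_prime_card (p := 3) (by simpa using hk)
      intro u v
      obtain ⟨g, hg⟩ := IsCyclic.exists_generator (α := D ⧸ C)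
      obtain ⟨i, rfl⟩ := hg u
      obtain ⟨j, rfl⟩ := hg v
      exact (Commute.refl g).zpow_zpow i j
    · exact (IsPGroup.isMulCommutative_of_card_eq_prime_sq hk).is_comm.comm
  have h1 : a * b * a⁻¹ * b⁻¹ ∈ Subgroup.centralizer (W : Set S) := by
    have h : ((⟨a, ha⟩ * ⟨b, hb⟩ * ⟨a, ha⟩⁻¹ * ⟨b, hb⟩⁻¹ : D) : D ⧸ C) = 1 := by
      rw [QuotientGroup.mk_mul, QuotientGroup.mk_mul, QuotientGroup.mk_mul, hcomm (↑(⟨a, ha⟩ : D))]
      simp
    exact Subgroup.mem_subgroupOf.1 ((QuotientGroup.eq_one_iff _).1 h)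
  have hmem : a * b * a⁻¹ * b⁻¹ ∈ D :=
    mul_mem (mul_mem (mul_mem ha hb) (inv_mem ha)) (inv_mem hb)
  obtain ⟨j, hj⟩ := hDp ⟨_, hmem⟩
  have hj' : (a * b * a⁻¹ * b⁻¹) ^ 3 ^ j = 1 := by simpa using congrArg Subtype.val hj
  exact mem_centralizer_of_odd hM hWM (hD hmem) h1 (n := 3 ^ j) (Odd.pow (by decide))
    (by rw [hj']; exact one_mem _)

theorem mem_commInto_of_refl {M V W : Subgroup S} [M.Normal] {x : S} (h : IsRefl M x V)
    (hW : V ≤ W) : x ∈ commInto M W := fun m hm => hW (h.comm_mem m hm)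

/-- An abelian group of exponent three normalized inside a 3-group by `x` normalizes `V`. -/
theorem le_normalizer_of_three {M V A P : Subgroup S} [M.Normal] (hM : IsElementaryAbelian 2 M)
    {x : S} (h : IsRefl M x V) (hP : IsPGroup 3 P) (hxP : x ∈ P) (hA : IsElementaryAbelian 3 A)
    (hAP : A ≤ P) (hxA : x ∈ Subgroup.normalizer (A : Set S)) :
    A ≤ Subgroup.normalizer (V : Set S) := by
  intro a ha
  rw [Subgroup.mem_normalizer_iff_map_conj_eq]
  by_contra hne
  change ¬ cjV a V = V at hne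
  have ha3 : a * a * a = 1 := by rw [← pow_three', hA.2 a ha]
  have hne2 : cjV (a * a) V ≠ V := fun h2 => hne (by
    have e : a = (a * a) * (a * a) := by
      calc a = (a * a * a) * a := by rw [ha3, one_mul]
        _ = (a * a) * (a * a) := by group
    rw [e, cjV_mul, h2, h2])
  have fix : ∀ s ∈ P, cjV s V ≠ V → ∀ v ∈ V, (s * x * s⁻¹) * v * (s * x * s⁻¹)⁻¹ = v := by
    intro s hs hsV
    have h' : IsRefl M (s * x * s⁻¹) (cjV s V) := h.map s
    refine (h.eq_or_fix hM h' ?_).resolve_left hsV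
    have hc : Nat.card ↥(V ⊔ cjV s V) ≤ 16 := by
      have e := card_mul_card_inf hM h.le h'.le
      rw [h.card, h'.card] at e
      have : 0 < Nat.card ↥(V ⊓ cjV s V) := Nat.card_pos
      nlinarith
    refine commute_mod_of_three hM (sup_le h.le h'.le) hc (D := P ⊓ commInto M (V ⊔ cjV s V))
      inf_le_right (hP.to_le inf_le_left) (Subgroup.mem_inf.2 ⟨hxP, mem_commInto_of_refl h le_sup_left⟩)
      (Subgroup.mem_inf.2 ⟨mul_mem (mul_mem hs hxP) (inv_mem hs), mem_commInto_of_refl h' le_sup_right⟩)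
  set y := a * x * a⁻¹ with hy
  set z := a * a * x * (a * a)⁻¹ with hz
  have hc : x * y⁻¹ ∈ A := by
    rw [hy, show x * (a * x * a⁻¹)⁻¹ = (x * a * x⁻¹) * a⁻¹ by group]
    exact mul_mem ((Subgroup.mem_normalizer_iff.1 hxA a).1 ha) (inv_mem ha)
  have hyz : x * y⁻¹ = y * z⁻¹ := by
    have e : a * (x * y⁻¹) = (x * y⁻¹) * a :=
      congrArg Subtype.val (hA.1.is_comm.comm ⟨a, ha⟩ ⟨_, hc⟩)
    calc x * y⁻¹ = (x * y⁻¹) * a * a⁻¹ := by group
      _ = a * (x * y⁻¹) * a⁻¹ := by rw [e]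
      _ = y * z⁻¹ := by rw [hy, hz]; group
  obtain ⟨v, hv, hv1⟩ : ∃ v ∈ V, v ≠ 1 := by
    suffices hb : V ≠ ⊥ by
      obtain ⟨⟨v, hv⟩, hv1⟩ := Subgroup.ne_bot_iff_exists_ne_one.1 hb
      exact ⟨v, hv, fun e => hv1 (Subtype.ext e)⟩
    intro hb
    have := h.card
    rw [hb, Subgroup.card_bot] at this
    omega
  have fy := fix a (hAP ha) hne v hv
  have fz := fix (a * a) (mul_mem (hAP ha) (hAP ha)) hne2 v hv
  rw [← hy] at fy
  rw [← hz] at fz
  refine hv1 (h.fpf v hv ?_)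
  calc x * v * x⁻¹ = (x * y⁻¹) * (y * v * y⁻¹) * (x * y⁻¹)⁻¹ := by group
    _ = (y * z⁻¹) * v * (y * z⁻¹)⁻¹ := by rw [fy, hyz]
    _ = y * (z⁻¹ * (z * v * z⁻¹) * z) * y⁻¹ := by rw [fz]; group
    _ = v := by rw [show z⁻¹ * (z * v * z⁻¹) * z = v by group, fy]

/-- In a group normalized by `x` of odd prime power order prime to 3, either conjugates of `V`
agree or they meet in a subgroup of order two. -/
theorem cjV_eq_or_inter {M V T : Subgroup S} [hMn : M.Normal] (hM : IsElementaryAbelian 2 M)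
    {x : S} (h : IsRefl M x V) {p : ℕ} [Fact p.Prime] (hp : 5 ≤ p) (hT : IsPGroup p T)
    (hxT : x ∈ Subgroup.normalizer (T : Set S)) {t : S} (ht : t ∈ T) (hne : cjV t V ≠ V) :
    p = 7 ∧ ∃ w ∈ V, w ∈ cjV t V ∧ w ≠ 1 := by
  have hp' : p.Prime := Fact.out
  have hodd : Odd p := hp'.odd_of_ne_two (by omega)
  set y := t * x * t⁻¹ with hy
  set V' := cjV t V with hV'
  have h' : IsRefl M y V' := h.map t
  set W := V ⊔ V' with hW
  have hWM : W ≤ M := sup_le h.le h'.le
  have hcard : Nat.card W * Nat.card ↥(V ⊓ V') = 16 := by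
    rw [hW, card_mul_card_inf hM h.le h'.le, h.card, h'.card]
  have hW16 : Nat.card W ≤ 16 := Nat.le_of_dvd (by norm_num) ⟨_, hcard.symm⟩
  set D := T ⊓ commInto M W with hD
  have hDN : D ≤ Subgroup.normalizer (W : Set S) :=
    inf_le_right.trans (commInto_le_normalizer hWM)
  have hxI : x ∈ commInto M W := mem_commInto_of_refl h le_sup_left
  have hyI : y ∈ commInto M W := mem_commInto_of_refl h' le_sup_right
  have hxD : ∀ d ∈ D, x * d * x⁻¹ ∈ D := fun d hd =>
    Subgroup.mem_inf.2 ⟨(Subgroup.mem_normalizer_iff.1 hxT d).1 hd.1, mul_mem (mul_mem hxI hd.2) (inv_mem hxI)⟩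
  set c := y * x⁻¹ with hc
  have hcT : c ∈ T := by
    rw [hc, hy, show t * x * t⁻¹ * x⁻¹ = t * (x * t⁻¹ * x⁻¹) by group]
    exact mul_mem ht ((Subgroup.mem_normalizer_iff.1 hxT _).1 (inv_mem ht))
  have hcD : c ∈ D := Subgroup.mem_inf.2 ⟨hcT, mul_mem hyI (inv_mem hxI)⟩
  have hpow : ∀ d ∈ D, ∃ n : ℕ, Odd n ∧ d ^ n = 1 := fun d hd => by
    obtain ⟨j, hj⟩ := hT ⟨d, hd.1⟩
    exact ⟨p ^ j, hodd.pow, by simpa using congrArg Subtype.val hj⟩
  set CW := Subgroup.centralizer (W : Set S) with hCW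
  have hCn : ∀ g ∈ Subgroup.normalizer (W : Set S), ∀ d ∈ CW, g * d * g⁻¹ ∈ CW := by
    intro g hg d hd
    refine Subgroup.mem_centralizer_iff.2 fun w hw => ?_
    have hw' : g⁻¹ * w * g ∈ W := by
      have := (Subgroup.mem_normalizer_iff.1 (inv_mem hg) w).1 hw
      simpa using this
    calc w * (g * d * g⁻¹) = g * ((g⁻¹ * w * g) * d) * g⁻¹ := by group
      _ = g * (d * (g⁻¹ * w * g)) * g⁻¹ := by rw [Subgroup.mem_centralizer_iff.1 hd _ hw']
      _ = g * d * g⁻¹ * w := by group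
  -- the actions of `x` and `y` do not commute
  have hnc : x * c * x⁻¹ * c⁻¹ ∉ CW := by
    intro hcw
    have hmem : x * c * x⁻¹ * c⁻¹ ∈ D := mul_mem (hxD c hcD) (inv_mem hcD)
    obtain ⟨n, hn, hn1⟩ := hpow _ hmem
    have hcM := mem_centralizer_of_odd hM hWM hmem.2 hcw hn (by rw [hn1]; exact one_mem _)
    haveI : (Subgroup.centralizer (M : Set S)).Normal := inferInstance
    set π := QuotientGroup.mk' (Subgroup.centralizer (M : Set S)) with hπ
    have hcx : Commute (π x) (π c) := by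
      have e : π (x * c * x⁻¹ * c⁻¹) = 1 := (QuotientGroup.eq_one_iff _).2 hcM
      rw [map_mul, map_mul, map_mul, map_inv, map_inv, mul_inv_eq_one, mul_inv_eq_iff_eq_mul] at e
      exact e
    have hy3 : π y ^ 3 = 1 := by
      rw [← map_pow]; exact (QuotientGroup.eq_one_iff _).2 h'.cube
    have hx3 : π x ^ 3 = 1 := by
      rw [← map_pow]; exact (QuotientGroup.eq_one_iff _).2 h.cube
    have hc3 : π c ^ 3 = 1 := by
      have e : π y = π c * π x := by rw [← map_mul, hc, inv_mul_cancel_right]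
      rw [e, hcx.symm.mul_pow, hx3, mul_one] at hy3
      exact hy3
    obtain ⟨j, hj⟩ := hT ⟨c, hcT⟩
    have hj' : π c ^ p ^ j = 1 := by
      rw [← map_pow, show c ^ p ^ j = 1 by simpa using congrArg Subtype.val hj, map_one]
    have e1 : π c ^ Nat.gcd 3 (p ^ j) = 1 := pow_gcd_eq_one.2 ⟨hc3, hj'⟩
    rw [Nat.Coprime.gcd_eq_one (Nat.Coprime.pow_right j
      ((Nat.coprime_primes Nat.prime_three hp').2 (by omega))), pow_one] at e1
    exact hne (h.eq_of_same hM h' ((QuotientGroup.eq_one_iff _).1 e1)).symm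
  have hcC : c ∉ CW := fun h0 => hnc (mul_mem (hCn x (commInto_le_normalizer hWM hxI) c h0)
    (inv_mem h0))
  -- the image of `D` on `W`
  set K := CW.subgroupOf D with hK
  haveI hKn : K.Normal := ⟨fun d hd g => Subgroup.mem_subgroupOf.2
    (hCn g (hDN g.2) d (Subgroup.mem_subgroupOf.1 hd))⟩
  obtain ⟨k, hk⟩ := IsPGroup.iff_card.1 ((hT.to_le (inf_le_left : D ≤ T)).to_quotient K)
  have hd : p ^ k ∣ 20160 := by
    rw [← hk, ← Subgroup.index_eq_card]
    exact (relIndex_centralizer_dvd hDN).trans (card_mulAut_dvd_small hM hWM hW16)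
  have hk0 : k ≠ 0 := by
    rintro rfl
    haveI : Subsingleton (D ⧸ K) := (Nat.card_eq_one_iff_unique.1 (by simpa using hk)).1
    exact hcC (Subgroup.mem_subgroupOf.1
      ((QuotientGroup.eq_one_iff (⟨c, hcD⟩ : D)).1 (Subsingleton.elim _ _)))
  have hk1 : k = 1 := by
    by_contra hne1
    have h2 : p * p ∣ 20160 := by
      rw [← pow_two]; exact (pow_dvd_pow p (show 2 ≤ k by omega)).trans hd
    have hco : ∀ r : ℕ, r.Prime → r < 5 → Nat.Coprime p r := fun r hr hr5 =>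
      (Nat.coprime_primes hp' hr).2 (by omega)
    have hcop : Nat.Coprime (p * p) (2 ^ 6 * 3 ^ 2) := by
      have h2' := (hco 2 Nat.prime_two (by norm_num)).pow_right 6
      have h3' := (hco 3 Nat.prime_three (by norm_num)).pow_right 2
      exact Nat.Coprime.mul_left (Nat.Coprime.mul_right h2' h3') (Nat.Coprime.mul_right h2' h3')
    have h35 : p * p ∣ 35 := hcop.dvd_of_dvd_mul_left (by norm_num; exact h2)
    have h4 : p ≤ 5 := by
      have := Nat.le_of_dvd (by norm_num) h35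
      nlinarith
    obtain rfl : p = 5 := by omega
    norm_num at h35
  subst hk1
  rw [pow_one] at hk
  have hgen : ∀ d ∈ D, ∃ i : ℕ, c ^ i * d⁻¹ ∈ CW := by
    intro d hd'
    have hcne : ((⟨c, hcD⟩ : D) : D ⧸ K) ≠ 1 := fun e =>
      hcC (Subgroup.mem_subgroupOf.1 ((QuotientGroup.eq_one_iff _).1 e))
    obtain ⟨i, hi⟩ := mem_powers_of_prime_card hk hcne (g' := ((⟨d, hd'⟩ : D) : D ⧸ K))
    refine ⟨i, ?_⟩
    have e : (((⟨c, hcD⟩ : D) ^ i * (⟨d, hd'⟩ : D)⁻¹ : D) : D ⧸ K) = 1 := by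
      rw [QuotientGroup.mk_mul, QuotientGroup.mk_pow, QuotientGroup.mk_inv, ← hi, mul_inv_cancel]
    exact Subgroup.mem_subgroupOf.1 ((QuotientGroup.eq_one_iff _).1 e)
  obtain ⟨a, ha⟩ := hgen _ (hxD c hcD)
  have hp7 : p = 7 := by
    have h20 : p ∣ 20160 := by rw [← pow_one p]; exact hd
    have : p ∣ 2 ^ 6 * 3 ^ 2 * 5 * 7 := by norm_num; exact h20
    rcases (Nat.Prime.dvd_mul hp').1 this with h1 | h1
    rcases (Nat.Prime.dvd_mul hp').1 h1 with h2 | h2
    rcases (Nat.Prime.dvd_mul hp').1 h2 with h3 | h3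
    · have := Nat.le_of_dvd (by norm_num) (hp'.dvd_of_dvd_pow h3); omega
    · have := Nat.le_of_dvd (by norm_num) (hp'.dvd_of_dvd_pow h3); omega
    · exfalso
      have hp5 : p = 5 := (Nat.prime_dvd_prime_iff_eq hp' Nat.prime_five).1 h2
      subst hp5
      let cb : D ⧸ K := ((⟨c, hcD⟩ : D) : D ⧸ K)
      have hconj : ∀ d (hd' : d ∈ D) (i : ℕ), ((⟨d, hd'⟩ : D) : D ⧸ K) = cb ^ i →
          ((⟨x * d * x⁻¹, hxD d hd'⟩ : D) : D ⧸ K) = cb ^ (a * i) := by
        intro d hd' i hi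
        have h1 : (⟨c, hcD⟩ : D) ^ i * (⟨d, hd'⟩ : D)⁻¹ ∈ K := by
          rw [← QuotientGroup.eq_one_iff, QuotientGroup.mk_mul, QuotientGroup.mk_pow,
            QuotientGroup.mk_inv, hi]
          exact mul_inv_cancel _
        have h2 := hCn x (commInto_le_normalizer hWM hxI) _ (Subgroup.mem_subgroupOf.1 h1)
        have h3 : ((⟨x * c * x⁻¹, hxD c hcD⟩ : D) ^ i * (⟨x * d * x⁻¹, hxD d hd'⟩ : D)⁻¹ : D) ∈
            K := by
          rw [Subgroup.mem_subgroupOf]
          simp only [Subgroup.coe_mul, SubmonoidClass.coe_pow, Subgroup.coe_inv] at h2 ⊢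
          convert h2 using 1
          rw [conj_pow]; group
        have h4 : ((⟨x * c * x⁻¹, hxD c hcD⟩ : D) : D ⧸ K) = cb ^ a := by
          have h5 : (⟨c, hcD⟩ : D) ^ a * (⟨x * c * x⁻¹, hxD c hcD⟩ : D)⁻¹ ∈ K := by
            rw [Subgroup.mem_subgroupOf]; simpa using ha
          rw [← QuotientGroup.eq_one_iff, QuotientGroup.mk_mul, QuotientGroup.mk_pow,
            QuotientGroup.mk_inv, mul_inv_eq_one] at h5
          exact h5.symm
        rw [← QuotientGroup.eq_one_iff, QuotientGroup.mk_mul, QuotientGroup.mk_pow,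
          QuotientGroup.mk_inv, mul_inv_eq_one, h4, ← pow_mul] at h3
        exact h3.symm
      have e1 := hconj c hcD 1 (pow_one _).symm
      have e2 := hconj _ _ _ e1
      have e3 := hconj _ _ _ e2
      have e4 : ((⟨x * (x * (x * c * x⁻¹) * x⁻¹) * x⁻¹, hxD _ (hxD _ (hxD c hcD))⟩ : D) : D ⧸ K)
          = cb := by
        have h3M : x ^ 3 ∈ CW := Subgroup.centralizer_le hWM h.cube
        have h6 : (⟨x * (x * (x * c * x⁻¹) * x⁻¹) * x⁻¹, hxD _ (hxD _ (hxD c hcD))⟩ : D) *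
            (⟨c, hcD⟩ : D)⁻¹ ∈ K := by
          rw [Subgroup.mem_subgroupOf]
          have := mul_mem h3M (hCn c (hDN hcD) _ (inv_mem h3M))
          convert this using 1
          simp only [Subgroup.coe_mul, Subgroup.coe_inv]
          rw [pow_three]; group
        rw [← QuotientGroup.eq_one_iff, QuotientGroup.mk_mul, QuotientGroup.mk_inv,
          mul_inv_eq_one] at h6
        exact h6
      rw [e4] at e3
      have hocb : orderOf cb = 5 := by
        refine orderOf_eq_prime (hk ▸ pow_card_eq_one') fun e =>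
          hcC (Subgroup.mem_subgroupOf.1 ((QuotientGroup.eq_one_iff _).1 e))
      have hmod : a * (a * (a * 1)) ≡ 1 [MOD 5] := by
        rw [← hocb]
        exact pow_eq_pow_iff_modEq.1 (by rw [← e3, pow_one])
      have ha1 : a ≡ 1 [MOD 5] := by
        unfold Nat.ModEq at hmod ⊢
        rw [mul_one, Nat.mul_mod, Nat.mul_mod a a] at hmod
        have := Nat.mod_lt a (show 5 > 0 by norm_num)
        have key : ∀ r < 5, (r % 5 * (r * r % 5 % 5)) % 5 = 1 % 5 → r = 1 % 5 := by decide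
        refine key _ this ?_
        simpa [Nat.mod_mod] using hmod
      apply hnc
      have e5 : ((⟨x * c * x⁻¹, hxD c hcD⟩ : D) : D ⧸ K) = cb := by
        rw [e1, pow_eq_pow_iff_modEq.2 (show a * 1 ≡ 1 [MOD orderOf cb] by rwa [hocb, mul_one]),
          pow_one]
      exact Subgroup.mem_subgroupOf.1 ((QuotientGroup.eq_one_iff
        ((⟨x * c * x⁻¹, hxD c hcD⟩ : D) * (⟨c, hcD⟩ : D)⁻¹)).1 (by
          rw [QuotientGroup.mk_mul, QuotientGroup.mk_inv, e5, mul_inv_cancel]))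
    · exact (Nat.prime_dvd_prime_iff_eq hp' (by norm_num)).1 h1
  subst hp7
  refine ⟨rfl, ?_⟩
  by_contra hint
  push_neg at hint
  have hinf : V ⊓ V' = ⊥ := by
    rw [eq_bot_iff]
    rintro w ⟨hw1, hw2⟩
    exact Subgroup.mem_bot.2 (hint w hw1 hw2)
  rw [hinf, Subgroup.card_bot, mul_one] at hcard
  -- the fixed point of `c`
  let f : W →* W :=
    { toFun := fun w => ⟨c * w * c⁻¹ * (w : S)⁻¹, hcD.2 w (hWM w.2)⟩
      map_one' := Subtype.ext (by simp)
      map_mul' := fun a b => Subtype.ext (by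
        have hb : c * b * c⁻¹ * (b : S)⁻¹ ∈ M := hWM (hcD.2 b (hWM b.2))
        change c * ((a : S) * b) * c⁻¹ * ((a : S) * b)⁻¹ = _
        calc c * ((a : S) * b) * c⁻¹ * ((a : S) * b)⁻¹
            = (c * a * c⁻¹) * ((c * b * c⁻¹ * (b : S)⁻¹) * (a : S)⁻¹) := by group
          _ = (c * a * c⁻¹) * ((a : S)⁻¹ * (c * b * c⁻¹ * (b : S)⁻¹)) := by
            rw [comm_of_elemAb hM hb (inv_mem (hWM a.2))]
          _ = _ := by simp [mul_assoc]) }
  obtain ⟨n, hn, hn1⟩ := hpow c hcD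
  have hfix : ∀ u : W, f (f u) = 1 → f u = 1 := by
    intro u hu
    let w : S := f u
    have hwf : c * w * c⁻¹ = w := mul_inv_eq_one.1 (congrArg Subtype.val hu)
    have hwM : w ∈ M := hWM (f u).2
    have h1 : c * (u : S) * c⁻¹ = u * w := by
      rw [comm_of_elemAb hM (hWM u.2) hwM]
      change _ = c * u * c⁻¹ * (u : S)⁻¹ * u
      group
    have hk' : ∀ k : ℕ, c ^ k * (u : S) * (c ^ k)⁻¹ = u * w ^ k := by
      intro k
      induction k with
      | zero => simp
      | succ k ih =>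
        calc c ^ (k + 1) * (u : S) * (c ^ (k + 1))⁻¹
            = c * (c ^ k * u * (c ^ k)⁻¹) * c⁻¹ := by rw [pow_succ' c k]; group
          _ = (c * u * c⁻¹) * (c * w * c⁻¹) ^ k := by rw [ih, conj_pow]; group
          _ = u * w ^ (k + 1) := by rw [h1, hwf, pow_succ']; group
    have h2 := hk' n
    rw [hn1, one_mul, inv_one, mul_one] at h2
    have h3 : w ^ n = 1 := mul_left_cancel (a := (u : S)) (by rw [← h2, mul_one])
    obtain ⟨j, rfl⟩ := hn
    rw [pow_succ, pow_mul, hM.2 w hwM, one_pow, one_mul] at h3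
    exact Subtype.ext h3
  have hker : Nat.card f.ker = 2 := by
    let G1 : Subgroup S := Subgroup.zpowers c
    have hG1 : IsPGroup 7 G1 := hT.to_le (Subgroup.zpowers_le.2 hcT)
    have hG1N : G1 ≤ Subgroup.normalizer (W : Set S) := Subgroup.zpowers_le.2 (hDN hcD)
    letI : MulAction G1 W :=
      MulAction.compHom W ((W.normalizerMonoidHom).comp (Subgroup.inclusion hG1N))
    have hsmul : ∀ (g : G1) (w : W), ((g • w : W) : S) = g * w * (g : S)⁻¹ := fun g w => rfl
    have heq : MulAction.fixedPoints G1 W = (f.ker : Set W) := by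
      ext w
      constructor
      · intro hw
        have e := congrArg Subtype.val (hw ⟨c, Subgroup.mem_zpowers c⟩)
        rw [hsmul] at e
        exact Subtype.ext (mul_inv_eq_one.2 e)
      · intro hw g
        apply Subtype.ext
        rw [hsmul]
        have e : c * (w : S) * c⁻¹ = w := mul_inv_eq_one.1 (congrArg Subtype.val hw)
        have hcw : c ∈ Subgroup.centralizer ({(w : S)} : Set S) :=
          Subgroup.mem_centralizer_singleton_iff.2 (mul_inv_eq_iff_eq_mul.1 e)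
        have := Subgroup.mem_centralizer_singleton_iff.1
          ((Subgroup.zpowers_le.2 hcw) g.2)
        rw [this, mul_inv_cancel_right]
    have hm := hG1.card_modEq_card_fixedPoints W
    rw [heq, hcard] at hm
    change 16 ≡ Nat.card f.ker [MOD 7] at hm
    have hdv : Nat.card f.ker ∣ 2 ^ 4 := by
      rw [show (2 : ℕ) ^ 4 = 16 by norm_num, ← hcard]; exact Subgroup.card_subgroup_dvd_card _
    obtain ⟨i, hi, hi'⟩ := (Nat.dvd_prime_pow Nat.prime_two).1 hdv
    rw [hi'] at hm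
    interval_cases i
    all_goals first
      | (rw [hi']; norm_num; done)
      | (exfalso; revert hm; decide; done)
      | skip
    exfalso
    refine hcC (Subgroup.mem_centralizer_iff.2 fun w hw => ?_)
    have htop : f.ker = ⊤ := Subgroup.eq_top_of_card_eq _ (by rw [hi', hcard]; norm_num)
    have e := congrArg Subtype.val (htop.ge (Subgroup.mem_top (⟨w, hw⟩ : W)) : f ⟨w, hw⟩ = 1)
    have e2 : c * w * c⁻¹ = w := mul_inv_eq_one.1 e
    exact (mul_inv_eq_iff_eq_mul.1 e2).symm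
  obtain ⟨w₀, hw₀, hw₀u⟩ := (Nat.card_eq_two_iff' (1 : f.ker)).1 hker
  set w := ((w₀ : W) : S) with hwdef
  have hwW : w ∈ W := (w₀ : W).2
  have hwc : c * w * c⁻¹ = w := mul_inv_eq_one.1 (congrArg Subtype.val w₀.2)
  have hcfix : ∀ d ∈ D, ∀ u ∈ W, c * u * c⁻¹ = u → d * u * d⁻¹ = u := by
    intro d hd' u hu hcu
    obtain ⟨i, hi⟩ := hgen d hd'
    have h1 := Subgroup.mem_centralizer_iff.1 (inv_mem hi) u hu
    have hcu' : Commute c u := mul_inv_eq_iff_eq_mul.1 hcu
    calc d * u * d⁻¹ = (c ^ i * d⁻¹)⁻¹ * (c ^ i * u) * d⁻¹ := by group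
      _ = (c ^ i * d⁻¹)⁻¹ * (u * c ^ i) * d⁻¹ := by rw [(hcu'.pow_left i).eq]
      _ = (c ^ i * d⁻¹)⁻¹ * u * (c ^ i * d⁻¹) := by group
      _ = u * (c ^ i * d⁻¹)⁻¹ * (c ^ i * d⁻¹) := by rw [← h1]
      _ = u := by group
  have hxiD : ∀ d ∈ D, x⁻¹ * d * x ∈ D := fun d hd' => by
    refine Subgroup.mem_inf.2 ⟨?_, mul_mem (mul_mem (inv_mem hxI) hd'.2) hxI⟩
    have := (Subgroup.mem_normalizer_iff.1 (inv_mem hxT) d).1 hd'.1
    simpa using this
  have hxw : x * w * x⁻¹ = w := by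
    have hxwW : x * w * x⁻¹ ∈ W :=
      (Subgroup.mem_normalizer_iff.1 (commInto_le_normalizer hWM hxI) w).1 hwW
    have hfx : c * (x * w * x⁻¹) * c⁻¹ = x * w * x⁻¹ := by
      have e := hcfix _ (hxiD c hcD) w hwW hwc
      calc c * (x * w * x⁻¹) * c⁻¹ = x * ((x⁻¹ * c * x) * w * (x⁻¹ * c * x)⁻¹) * x⁻¹ := by group
        _ = x * w * x⁻¹ := by rw [e]
    have hne1 : (⟨⟨x * w * x⁻¹, hxwW⟩, Subtype.ext (mul_inv_eq_one.2 hfx)⟩ : f.ker) ≠ 1 := by
      intro e
      apply hw₀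
      have e' : x * w * x⁻¹ = 1 := congrArg (fun z : f.ker => ((z : W) : S)) e
      exact Subtype.ext (Subtype.ext (conj_eq_one_iff.1 e'))
    exact congrArg (fun z : f.ker => ((z : W) : S)) (hw₀u _ hne1)
  set U : Subgroup S := f.range.map W.subtype with hUdef
  have hdisj : f.range ⊓ f.ker = ⊥ := by
    rw [eq_bot_iff]
    rintro z ⟨⟨u, rfl⟩, hz⟩
    exact Subgroup.mem_bot.2 (hfix u hz)
  have hfr : Nat.card f.range = 8 := by
    have e := Subgroup.card_mul_index f.ker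
    rw [Subgroup.index_ker, hker, hcard] at e
    omega
  have hsup : f.range ⊔ f.ker = ⊤ := by
    letI : CommGroup W := { (inferInstance : Group W) with
      mul_comm := fun a b => Subtype.ext (comm_of_elemAb hM (hWM a.2) (hWM b.2)) }
    have e := card_mul_card_inf (S := S) hM (A := U) (B := f.ker.map W.subtype)
      ((Subgroup.map_subtype_le _).trans hWM) ((Subgroup.map_subtype_le _).trans hWM)
    rw [hUdef, ← Subgroup.map_sup, ← Subgroup.map_inf _ _ _ W.subtype_injective, hdisj,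
      Subgroup.map_bot, Subgroup.card_bot, mul_one,
      Subgroup.card_map_of_injective W.subtype_injective,
      Subgroup.card_map_of_injective W.subtype_injective,
      Subgroup.card_map_of_injective W.subtype_injective, hfr, hker] at e
    exact Subgroup.eq_top_of_card_eq _ (e.trans hcard.symm)
  have hUinv : ∀ g ∈ commInto M W, (∀ d ∈ D, g * d * g⁻¹ ∈ D) → ∀ u ∈ U, g * u * g⁻¹ ∈ U := by
    have hpow' : ∀ (i : ℕ), ∀ v ∈ W, c ^ i * v * (c ^ i)⁻¹ * v⁻¹ ∈ U := by
      intro i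
      induction i with
      | zero => intro v _; simp
      | succ i ih =>
        intro v hv
        have hv' : c ^ i * v * (c ^ i)⁻¹ ∈ W :=
          (Subgroup.mem_normalizer_iff.1 (pow_mem (hDN hcD) i) v).1 hv
        have h1 : c * (c ^ i * v * (c ^ i)⁻¹) * c⁻¹ * (c ^ i * v * (c ^ i)⁻¹)⁻¹ ∈ U :=
          ⟨_, ⟨⟨_, hv'⟩, rfl⟩, rfl⟩
        have h2 := mul_mem h1 (ih v hv)
        convert h2 using 1
        rw [pow_succ' c i]; group
    rintro g hg hgD _ ⟨_, ⟨u, rfl⟩, rfl⟩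
    have hgN := commInto_le_normalizer hWM hg
    have hgu : g * (u : S) * g⁻¹ ∈ W := (Subgroup.mem_normalizer_iff.1 hgN u).1 u.2
    obtain ⟨i, hi⟩ := hgen _ (hgD c hcD)
    have hcu : c ^ i * (g * (u : S) * g⁻¹) * (c ^ i)⁻¹ =
        (g * c * g⁻¹) * (g * (u : S) * g⁻¹) * (g * c * g⁻¹)⁻¹ := by
      set d := g * c * g⁻¹
      set v := g * (u : S) * g⁻¹
      have hdv : d * v * d⁻¹ ∈ W :=
        (Subgroup.mem_normalizer_iff.1 (hDN (hgD c hcD)) v).1 hgu
      calc c ^ i * v * (c ^ i)⁻¹ = (c ^ i * d⁻¹) * (d * v * d⁻¹) * (c ^ i * d⁻¹)⁻¹ := by group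
        _ = d * v * d⁻¹ := by
          rw [← Subgroup.mem_centralizer_iff.1 hi _ hdv, mul_inv_cancel_right]
    have h3 := hpow' i _ hgu
    rw [hcu] at h3
    convert h3 using 1
    change g * (c * (u : S) * c⁻¹ * (u : S)⁻¹) * g⁻¹ = _
    group
  have hWe : ∀ v ∈ W, ∃ u ∈ U, v = u ∨ v = u * w := by
    intro v hv
    have hmem : (⟨v, hv⟩ : W) ∈ f.range ⊔ f.ker := hsup ▸ Subgroup.mem_top _
    haveI : f.ker.Normal := inferInstance
    obtain ⟨u, hu, z, hz, e⟩ := Subgroup.mem_sup_of_normal_right.1 hmem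
    refine ⟨u, ⟨u, hu, rfl⟩, ?_⟩
    by_cases hz1 : z = 1
    · left
      rw [hz1, mul_one] at e
      exact congrArg Subtype.val e.symm
    · right
      have hz' : (⟨z, hz⟩ : f.ker) = w₀ := hw₀u _ fun e' => hz1 (congrArg Subtype.val e')
      have e2 := congrArg Subtype.val e.symm
      rw [show z = (w₀ : W) from congrArg Subtype.val hz'] at e2
      exact e2
  have hsub : ∀ (g : S) (A : Subgroup S), IsRefl M g A → A ≤ W → g ∈ commInto M W →
      (∀ d ∈ D, g * d * g⁻¹ ∈ D) → g * w * g⁻¹ = w → A ≤ U := by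
    intro g A hgA hAW hgI hgD hgw v hv
    obtain ⟨u0, hu0, rfl⟩ := hgA.surj hM v hv
    obtain ⟨u, hu, rfl | rfl⟩ := hWe u0 (hAW hu0)
    · exact mul_mem (hUinv g hgI hgD u0 hu) (inv_mem hu)
    · have e : g * (u * w) * g⁻¹ * (u * w)⁻¹ = g * u * g⁻¹ * u⁻¹ := by
        rw [show g * (u * w) * g⁻¹ = (g * u * g⁻¹) * (g * w * g⁻¹) by group, hgw]
        group
      rw [e]
      exact mul_mem (hUinv g hgI hgD u hu) (inv_mem hu)
  have hyc : y = c * x := by rw [hc, inv_mul_cancel_right]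
  have hyD : ∀ d ∈ D, y * d * y⁻¹ ∈ D := fun d hd' => by
    rw [hyc, show c * x * d * (c * x)⁻¹ = c * (x * d * x⁻¹) * c⁻¹ by group]
    exact mul_mem (mul_mem hcD (hxD d hd')) (inv_mem hcD)
  have hyw : y * w * y⁻¹ = w := by
    rw [hyc, show c * x * w * (c * x)⁻¹ = c * (x * w * x⁻¹) * c⁻¹ by group, hxw, hwc]
  have hWU : W ≤ U := sup_le (hsub x V h le_sup_left hxI hxD hxw)
    (hsub y V' h' le_sup_right hyI hyD hyw)
  have := Subgroup.card_le_of_le hWU
  rw [hUdef, Subgroup.card_map_of_injective W.subtype_injective, hfr, hcard] at this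
  omega

end Cfsg.Agent.Reflect
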